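import Cfsg.Agent.SmallSimple.TheoremC
import Cfsg.Agent.Blocks.Basic
import Cfsg.Agent.S0973
import Cfsg.Agent.S0954
import Cfsg.Agent.S0923
import Cfsg.Agent.S0931
import Cfsg.Agent.S0914
import Cfsg.Agent.S0908
import Cfsg.Agent.S0924
import Cfsg.Agent.H589.Tilde
import Cfsg.Agent.Blocks.CentralizerSum
set_option linter.all false

/-!
# Blocks of positive defect when the Sylow subgroups have order `p`

Let `P` be a Sylow `p`-subgroup of order `p` and `K` the normal `p`-complement of `C(P)`.

* `infl θ`: the inflation of `θ ∈ Irr K` to `C(P) = P × K`;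
* `induced_of_mem_Over`: the block of `infl θ` induces the block of every character over `θ`;
* `exists_eq_Over`: a block of positive defect is the set of the characters over some `θ`.
-/

set_option autoImplicit false

open Cfsg Subgroup Cfsg.Agent.Blocks.Basic Cfsg.Agent.Blocks.Local
open Cfsg.Agent.Characters.Core
open Cfsg.Agent.SmallSimple.ThetaSetup Cfsg.Agent.SmallSimple.ThetaOrtho
open Cfsg.Agent.SmallSimple.TheoremC
open scoped ComplexConjugate

namespace Cfsg.Agent.H608.CycOne

universe u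

variable {G : Type u} [Group G] [Finite G] {p : ℕ} [Fact p.Prime] {P : Sylow p G} {K : Subgroup G}

/-! ### Restatements for equal subgroups -/

theorem second_main {M : Ideal AlgInt} (hM : IsPModular p M) {x : G}
    (hx : ∃ k : ℕ, orderOf x = p ^ k) {H : Subgroup G} (hH : H = centralizer ({x} : Set G))
    {B : Set (IrrCharacter G)} (hB : IsPBlock M B) {χ : IrrCharacter G} (hχ : χ ∈ B)
    {b : Set (IrrCharacter H)} (hb : IsPBlock M b) (hnot : ¬ IsInducedBlock M H b B) (y : H)
    (hy : ¬ p ∣ orderOf y) : blockPart b (fun c : H => (χ : G → ℂ) (x * (c : G))) y = 0 := by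
  subst hH
  exact Cfsg.Agent.S0923.result p M hM x hx B hB χ hχ b hb hnot y hy

theorem extended_fmt {M : Ideal AlgInt} (hM : IsPModular p M) {B : Set (IrrCharacter G)}
    (hB : IsPBlock M B) {Q : Subgroup G} (hQ : IsDefectGroup p M B Q) {L : Subgroup G}
    (hL : L = Q ⊔ centralizer (Q : Set G)) {b b' : Set (IrrCharacter L)}
    (hb : IsInducedBlock M L b B) (hb' : IsInducedBlock M L b' B) :
    ∃ n ∈ normalizer (Q : Set G), ∀ θ ∈ b, ∃ θ' ∈ b', ∀ x : L, ∀ hx : n * (x : G) * n⁻¹ ∈ L,
      (θ' : L → ℂ) x = (θ : L → ℂ) ⟨n * (x : G) * n⁻¹, hx⟩ := by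
  subst hL
  exact (Cfsg.Agent.S0973.result p M hM B hB Q hQ).2 b b' hb hb'

/-! ### Inflation -/

/-- The projection `C(P) → K`. -/
noncomputable def proj (hK : IsComp p (P : Subgroup G) K) (hP : Nat.card P = p) :
    centralizer (P : Set G) →* K :=
  (MonoidHom.snd P K).comp (prodEquiv hK hP).symm.toMonoidHom

theorem proj_surjective (hK : IsComp p (P : Subgroup G) K) (hP : Nat.card P = p) :
    Function.Surjective (proj hK hP) := by
  intro y
  exact ⟨prodEquiv hK hP (1, y), by
    show ((prodEquiv hK hP).symm (prodEquiv hK hP (1, y))).2 = y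
    rw [MulEquiv.symm_apply_apply]⟩

theorem proj_mul (hK : IsComp p (P : Subgroup G) K) (hP : Nat.card P = p) (x : P) (y : K)
    (h : (x : G) * y ∈ centralizer (P : Set G)) : proj hK hP ⟨(x : G) * y, h⟩ = y := by
  have h1 : (⟨(x : G) * y, h⟩ : centralizer (P : Set G)) = prodEquiv hK hP (x, y) :=
    Subtype.ext (coe_prodEquiv hK hP (x, y)).symm
  rw [h1]
  show ((prodEquiv hK hP).symm (prodEquiv hK hP (x, y))).2 = y
  rw [MulEquiv.symm_apply_apply]

theorem proj_of_mem (hK : IsComp p (P : Subgroup G) K) (hP : Nat.card P = p) (y : K)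
    (h : (y : G) ∈ centralizer (P : Set G)) : proj hK hP ⟨(y : G), h⟩ = y := by
  have h1 := proj_mul hK hP 1 y (by simpa using h)
  simpa using h1

/-- The inflation of `θ` to `C(P)`. -/
noncomputable def infl (hK : IsComp p (P : Subgroup G) K) (hP : Nat.card P = p)
    (θ : IrrCharacter K) : IrrCharacter (centralizer (P : Set G)) :=
  ⟨(θ : K → ℂ) ∘ proj hK hP, isIrr_comp _ (proj_surjective hK hP) θ.2⟩

theorem infl_apply (hK : IsComp p (P : Subgroup G) K) (hP : Nat.card P = p)
    (θ : IrrCharacter K) (y : K) (h : (y : G) ∈ centralizer (P : Set G)) :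
    (infl hK hP θ : centralizer (P : Set G) → ℂ) ⟨(y : G), h⟩ = (θ : K → ℂ) y := by
  show (θ : K → ℂ) (proj hK hP ⟨(y : G), h⟩) = _
  rw [proj_of_mem]

/-- The inner product of the restriction to `K` of a function on `C(P)`. -/
noncomputable def resInner (hK : IsComp p (P : Subgroup G) K)
    (ξ : centralizer (P : Set G) → ℂ) (θ : K → ℂ) : ℂ :=
  haveI := Fintype.ofFinite K
  classInner (fun y : K => ξ ⟨y, hK.le y.2⟩) θ

theorem resInner_eq [Fintype K] (hK : IsComp p (P : Subgroup G) K)
    (ξ : centralizer (P : Set G) → ℂ) (θ : K → ℂ) :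
    resInner hK ξ θ = classInner (fun y : K => ξ ⟨y, hK.le y.2⟩) θ := by
  unfold resInner
  rw [Subsingleton.elim (Fintype.ofFinite K) ‹Fintype K›]

theorem normal_subgroupOf (hK : IsComp p (P : Subgroup G) K) :
    (K.subgroupOf (centralizer (P : Set G))).Normal := by
  constructor
  intro y hy c
  rw [mem_subgroupOf] at hy ⊢
  have := conj_mem hK (centralizer_le_normalizer _ c.2) hy
  simpa using this

theorem index_subgroupOf (hK : IsComp p (P : Subgroup G) K) (hP : Nat.card P = p) :
    (K.subgroupOf (centralizer (P : Set G))).index = p := by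
  have h1 := (K.subgroupOf (centralizer (P : Set G))).card_mul_index
  rw [Nat.card_congr (subgroupOfEquivOfLe hK.le).toEquiv, ← Nat.card_congr (prodEquiv hK hP).toEquiv,
    Nat.card_prod, hP, mul_comm p] at h1
  exact Nat.eq_of_mul_eq_mul_left Nat.card_pos h1

/-- Characters of `C(P)` with a common constituent on `K` are in the same block. -/
theorem sameBlock_iff (hK : IsComp p (P : Subgroup G) K) (hP : Nat.card P = p)
    {M : Ideal AlgInt} (hM : IsPModular p M) (ξ ξ' : IrrCharacter (centralizer (P : Set G))) :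
    SameBlock M (ξ : centralizer (P : Set G) → ℂ) (ξ' : centralizer (P : Set G) → ℂ) ↔
      ∃ θ : IrrCharacter K, resInner hK (ξ : centralizer (P : Set G) → ℂ) (θ : K → ℂ) ≠ 0 ∧
        resInner hK (ξ' : centralizer (P : Set G) → ℂ) (θ : K → ℂ) ≠ 0 := by
  classical
  have := Fintype.ofFinite K
  have := Fintype.ofFinite (centralizer (P : Set G))
  have := Fintype.ofFinite (K.subgroupOf (centralizer (P : Set G)))
  have := normal_subgroupOf hK
  let e := subgroupOfEquivOfLe hK.le
  have hcard : ¬ p ∣ Nat.card (K.subgroupOf (centralizer (P : Set G))) := by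
    rw [Nat.card_congr e.toEquiv]
    exact hK.not_dvd_card
  have h954 := Cfsg.Agent.S0954.result p M hM (K.subgroupOf (centralizer (P : Set G))) hcard
    ⟨1, by rw [index_subgroupOf hK hP, pow_one]⟩ ξ ξ'
  have key : ∀ (ξ : IrrCharacter (centralizer (P : Set G))) (θ : K → ℂ),
      resInner hK (ξ : centralizer (P : Set G) → ℂ) θ =
      classInner (fun n : K.subgroupOf (centralizer (P : Set G)) =>
        (ξ : centralizer (P : Set G) → ℂ) n) (θ ∘ e) := by
    intro ξ θ
    rw [resInner_eq]
    exact (Characters.Clifford.classInner_comp_mulEquiv e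
      (fun y : K => (ξ : centralizer (P : Set G) → ℂ) ⟨y, hK.le y.2⟩) θ).symm
  rw [h954]
  constructor
  · rintro ⟨θ, h1, h2⟩
    refine ⟨⟨(θ : K.subgroupOf (centralizer (P : Set G)) → ℂ) ∘ e.symm,
      isIrr_comp e.symm.toMonoidHom e.symm.surjective θ.2⟩, ?_, ?_⟩
    · rw [key]
      have : ((θ : K.subgroupOf (centralizer (P : Set G)) → ℂ) ∘ e.symm) ∘ e = θ := by
        funext x; simp
      rw [this]; exact h1
    · rw [key]
      have : ((θ : K.subgroupOf (centralizer (P : Set G)) → ℂ) ∘ e.symm) ∘ e = θ := by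
        funext x; simp
      rw [this]; exact h2
  · rintro ⟨θ, h1, h2⟩
    rw [key] at h1 h2
    exact ⟨⟨(θ : K → ℂ) ∘ e, isIrr_comp e.toMonoidHom e.surjective θ.2⟩, h1, h2⟩

theorem resInner_infl_self (hK : IsComp p (P : Subgroup G) K) (hP : Nat.card P = p)
    (θ : IrrCharacter K) :
    resInner hK (infl hK hP θ : centralizer (P : Set G) → ℂ) (θ : K → ℂ) = 1 := by
  have := Fintype.ofFinite K
  rw [resInner_eq]
  have h1 : (fun y : K => (infl hK hP θ : centralizer (P : Set G) → ℂ) ⟨y, hK.le y.2⟩) =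
      (θ : K → ℂ) := funext fun y => infl_apply hK hP θ y _
  rw [h1]
  exact classInner_irr_self θ.2

theorem resInner_infl_ne (hK : IsComp p (P : Subgroup G) K) (hP : Nat.card P = p)
    {θ θ' : IrrCharacter K} (h : θ ≠ θ') :
    resInner hK (infl hK hP θ : centralizer (P : Set G) → ℂ) (θ' : K → ℂ) = 0 := by
  have := Fintype.ofFinite K
  rw [resInner_eq]
  have h1 : (fun y : K => (infl hK hP θ : centralizer (P : Set G) → ℂ) ⟨y, hK.le y.2⟩) =
      (θ : K → ℂ) := funext fun y => infl_apply hK hP θ y _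
  rw [h1]
  exact classInner_irr_ne θ.2 θ'.2 fun h' => h (Subtype.ext h')

/-- The block of `C(P)` over `θ`. -/
theorem mem_block_infl (hK : IsComp p (P : Subgroup G) K) (hP : Nat.card P = p)
    {M : Ideal AlgInt} (hM : IsPModular p M) (θ : IrrCharacter K)
    {ξ : IrrCharacter (centralizer (P : Set G))}
    (h : resInner hK (ξ : centralizer (P : Set G) → ℂ) (θ : K → ℂ) ≠ 0) :
    ξ ∈ blockOf M (infl hK hP θ : centralizer (P : Set G) → ℂ) := by
  show SameBlock M _ _
  rw [sameBlock_iff hK hP hM]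
  refine ⟨θ, ?_, h⟩
  rw [resInner_infl_self]
  exact one_ne_zero

theorem infl_block_injective (hK : IsComp p (P : Subgroup G) K) (hP : Nat.card P = p)
    {M : Ideal AlgInt} (hM : IsPModular p M) {θ θ' : IrrCharacter K}
    (h : SameBlock M (infl hK hP θ : centralizer (P : Set G) → ℂ)
      (infl hK hP θ' : centralizer (P : Set G) → ℂ)) : θ = θ' := by
  rw [sameBlock_iff hK hP hM] at h
  obtain ⟨θ'', h1, h2⟩ := h
  have e1 : θ = θ'' := by by_contra hne; exact h1 (resInner_infl_ne hK hP hne)
  have e2 : θ' = θ'' := by by_contra hne; exact h2 (resInner_infl_ne hK hP hne)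
  rw [e1, e2]

/-- The block of `infl θ` induces the blocks of the characters over `θ`. -/
theorem induced_of_mem_Over (hK : IsComp p (P : Subgroup G) K) (hP : Nat.card P = p)
    {M : Ideal AlgInt} (hM : IsPModular p M) {θ : IrrCharacter K} {χ : IrrCharacter G}
    (hχ : χ ∈ Over P (θ : K → ℂ)) {B : Set (IrrCharacter G)} (hB : IsPBlock M B) (hχB : χ ∈ B) :
    IsInducedBlock M (centralizer (P : Set G))
      (blockOf M (infl hK hP θ : centralizer (P : Set G) → ℂ)) B := by
  classical
  by_contra hnot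
  obtain ⟨x, hx1, hne⟩ := hχ
  apply hne
  have hx1' : (x : G) ≠ 1 := fun h => hx1 (Subtype.ext h)
  have hcen := Blocks.CyclicOrtho.centralizer_eq P hP x.2 hx1'
  have hxp : ∃ k : ℕ, orderOf (x : G) = p ^ k := ⟨1, by
    rw [pow_one]; exact Blocks.CyclicOrtho.orderOf_eq P hP x.2 hx1'⟩
  have := Fintype.ofFinite K
  have := Fintype.ofFinite (centralizer (P : Set G))
  have : Finite (IrrCharacter (centralizer (P : Set G))) := finite_irr
  have := Fintype.ofFinite (IrrCharacter (centralizer (P : Set G)))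
  set b := blockOf M (infl hK hP θ : centralizer (P : Set G) → ℂ) with hb
  set f : centralizer (P : Set G) → ℂ := fun c => (χ : G → ℂ) (x * (c : G)) with hf
  have hv : ∀ y : K, blockPart b f ⟨y, hK.le y.2⟩ = 0 := by
    intro y
    refine second_main hM hxp hcen.symm hB hχB ⟨_, hb⟩ hnot _ ?_
    rw [← Subgroup.orderOf_coe]
    exact ((hK (y : G)).1 y.2).2
  have hfc : IsClassFunction (centralizer (P : Set G)) f := by
    intro c d
    show (χ : G → ℂ) (x * ((d * c * d⁻¹ : centralizer (P : Set G)) : G)) = (χ : G → ℂ) (x * (c : G))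
    have h1 : (x : G) * ((d * c * d⁻¹ : centralizer (P : Set G)) : G) =
        (d : G) * (x * (c : G)) * (d : G)⁻¹ := by
      have h2 : (x : G) * d = d * x := mem_centralizer_iff.1 d.2 x x.2
      push_cast
      calc (x : G) * ((d : G) * c * (d : G)⁻¹) = (x * d) * c * (d : G)⁻¹ := by group
        _ = _ := by rw [h2]; group
    rw [h1, isIrr_isClassFunction χ.2]
  -- the part of `f`
  have hpart : part (θ : K → ℂ) (χ : G → ℂ) x = resInner hK f (θ : K → ℂ) := by
    rw [resInner_eq]
    unfold part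
    rw [Subsingleton.elim (Fintype.ofFinite K) ‹Fintype K›]
  rw [hpart]
  have h0 : resInner hK (blockPart b f) (θ : K → ℂ) = 0 := by
    rw [resInner_eq]
    have : (fun y : K => blockPart b f ⟨y, hK.le y.2⟩) = 0 := funext hv
    rw [this, Characters.Core.classInner_def]
    simp
  rw [← h0]
  have hsum1 : f = ∑ ξ : IrrCharacter (centralizer (P : Set G)),
      classInner f (ξ : centralizer (P : Set G) → ℂ) • (ξ : centralizer (P : Set G) → ℂ) :=
    classFunction_eq_sum hfc
  have hsum2 : blockPart b f = ∑ ξ ∈ b.toFinset,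
      classInner f (ξ : centralizer (P : Set G) → ℂ) • (ξ : centralizer (P : Set G) → ℂ) := by
    funext c
    unfold blockPart
    rw [Subsingleton.elim (Fintype.ofFinite (centralizer (P : Set G)))
      ‹Fintype (centralizer (P : Set G))›, finsum_mem_eq_toFinset_sum, Finset.sum_apply]
    rfl
  have hres : ∀ (s : Finset (IrrCharacter (centralizer (P : Set G))))
      (c : IrrCharacter (centralizer (P : Set G)) → ℂ),
      resInner hK (∑ ξ ∈ s, c ξ • (ξ : centralizer (P : Set G) → ℂ)) (θ : K → ℂ) =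
      ∑ ξ ∈ s, c ξ * resInner hK (ξ : centralizer (P : Set G) → ℂ) (θ : K → ℂ) := by
    intro s c
    rw [resInner_eq]
    have : (fun y : K => (∑ ξ ∈ s, c ξ • (ξ : centralizer (P : Set G) → ℂ)) ⟨y, hK.le y.2⟩) =
        ∑ ξ ∈ s, c ξ • (fun y : K => (ξ : centralizer (P : Set G) → ℂ) ⟨y, hK.le y.2⟩) := by
      funext y
      simp only [Finset.sum_apply, Pi.smul_apply]
    rw [this, classInner_sum_left]
    refine Finset.sum_congr rfl fun ξ _ => ?_
    rw [classInner_smul_left, resInner_eq]
  rw [hsum2]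
  conv_lhs => rw [hsum1]
  rw [hres, hres]
  symm
  refine Finset.sum_subset (Finset.subset_univ _) fun ξ _ hξ => ?_
  have : resInner hK (ξ : centralizer (P : Set G) → ℂ) (θ : K → ℂ) = 0 := by
    by_contra hne
    exact hξ (Set.mem_toFinset.2 (mem_block_infl hK hP hM θ hne))
  rw [this, mul_zero]

/-! ### Conjugacy -/

/-- If the blocks of `infl θ` and `infl θ'` induce the same block with defect group `P`, then `θ`
and `θ'` are conjugate in `N(P)`. -/
theorem exists_tw_eq (hK : IsComp p (P : Subgroup G) K) (hP : Nat.card P = p)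
    {M : Ideal AlgInt} (hM : IsPModular p M) {θ θ' : IrrCharacter K} {B : Set (IrrCharacter G)}
    (hB : IsPBlock M B) (hD : IsDefectGroup p M B (P : Subgroup G))
    (h : IsInducedBlock M (centralizer (P : Set G))
      (blockOf M (infl hK hP θ : centralizer (P : Set G) → ℂ)) B)
    (h' : IsInducedBlock M (centralizer (P : Set G))
      (blockOf M (infl hK hP θ' : centralizer (P : Set G) → ℂ)) B) :
    ∃ n ∈ normalizer ((P : Subgroup G) : Set G), tw (θ : K → ℂ) n = θ' := by
  have := isPrime_of_isPModular hM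
  have hL : centralizer (P : Set G) = (P : Subgroup G) ⊔ centralizer ((P : Subgroup G) : Set G) :=
    (sup_eq_right.2 (le_centralizer hP)).symm
  obtain ⟨n, hn, hnn⟩ := extended_fmt hM hB hD hL h h'
  refine ⟨n, hn, ?_⟩
  obtain ⟨η, hη, hηx⟩ := hnn (infl hK hP θ) (mem_blockOf_self _)
  have hres : ∀ y : K, (η : centralizer (P : Set G) → ℂ) ⟨y, hK.le y.2⟩ = tw (θ : K → ℂ) n y := by
    intro y
    have h1 : n * (y : G) * n⁻¹ ∈ K := conj_mem hK hn y.2
    rw [hηx ⟨y, hK.le y.2⟩ (hK.le h1), tw_apply hK _ hn]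
    exact infl_apply hK hP θ ⟨_, h1⟩ _
  have hirr : IsIrrCharacter K (tw (θ : K → ℂ) n) := isIrr_tw hK θ.2 hn
  have hmem : η ∈ blockOf M (infl hK hP ⟨_, hirr⟩ : centralizer (P : Set G) → ℂ) := by
    apply mem_block_infl hK hP hM
    have := Fintype.ofFinite K
    rw [resInner_eq]
    have h2 : (fun y : K => (η : centralizer (P : Set G) → ℂ) ⟨y, hK.le y.2⟩) =
        tw (θ : K → ℂ) n := funext hres
    rw [h2]
    show classInner (tw (θ : K → ℂ) n) (tw (θ : K → ℂ) n) ≠ 0
    rw [classInner_irr_self hirr]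
    exact one_ne_zero
  have hsame : SameBlock M (infl hK hP ⟨_, hirr⟩ : centralizer (P : Set G) → ℂ)
      (infl hK hP θ' : centralizer (P : Set G) → ℂ) :=
    sameBlock_trans hmem (sameBlock_symm hη)
  have h3 := infl_block_injective hK hP hM hsame
  exact congrArg Subtype.val h3

/-- The Sylow subgroup is a defect group of a block of positive defect. -/
theorem isDefectGroup_sylow (hP : Nat.card P = p) {M : Ideal AlgInt} (hM : IsPModular p M)
    {B : Set (IrrCharacter G)} (hB : IsPBlock M B) (hd : 0 < blockDefect p B) :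
    IsDefectGroup p M B (P : Subgroup G) := by
  have hp : p.Prime := Fact.out
  obtain ⟨D, hD, hDp⟩ := Cfsg.Agent.S0931.exists_defectGroup p M hM B hB
  have hcard := Cfsg.Agent.S0908.result p M hM B hB D hD
  obtain ⟨S, hS⟩ := hDp.exists_le_sylow
  obtain ⟨g, hg⟩ := MulAction.exists_smul_eq G S P
  have hD' := isDefectGroup_conj hD g
  have hle : D.map (MulAut.conj g).toMonoidHom ≤ (P : Subgroup G) := by
    rw [← hg]
    exact Subgroup.map_mono hS
  have hcard' : Nat.card (D.map (MulAut.conj g).toMonoidHom) = Nat.card D :=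
    (Nat.card_congr (D.equivMapOfInjective _ (MulAut.conj g).injective).toEquiv).symm
  have heq : D.map (MulAut.conj g).toMonoidHom = (P : Subgroup G) := by
    apply Subgroup.eq_of_le_of_card_ge hle
    rw [hcard', hcard, hP]
    exact Nat.le_self_pow hd.ne' p
  rwa [heq] at hD'

theorem charDegree_spec (χ : IrrCharacter G) :
    (χ : G → ℂ) 1 = (charDegree (χ : G → ℂ) : ℂ) ∧ 0 < charDegree (χ : G → ℂ) := by
  obtain ⟨d, hd0, hd⟩ := isIrr_apply_one χ.2
  have : charDegree (χ : G → ℂ) = d := by
    rw [charDegree, hd]; simp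
  rw [this]
  exact ⟨hd, hd0⟩

theorem factorization_card (hP : Nat.card P = p) : (Nat.card G).factorization p = 1 := by
  have hp : p.Prime := Fact.out
  have h1 := P.card_eq_multiplicity
  have h2 : p ^ (Nat.card G).factorization p = p ^ 1 := by
    rw [← h1, pow_one]; exact hP
  exact Nat.pow_right_injective hp.two_le h2

theorem not_sq_dvd (hP : Nat.card P = p) : ¬ p * p ∣ Nat.card G := by
  have hp : p.Prime := Fact.out
  intro h
  have h1 : p ^ 2 ∣ Nat.card G := by rwa [sq]
  have h2 := (hp.pow_dvd_iff_le_factorization Nat.card_pos.ne').1 h1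
  rw [factorization_card hP] at h2
  omega

/-- A character whose degree is divisible by `p` is alone in its block and the block has defect
zero. -/
theorem blockDefect_eq_zero (hP : Nat.card P = p) {M : Ideal AlgInt} (hM : IsPModular p M)
    {B : Set (IrrCharacter G)} (hB : IsPBlock M B) {χ : IrrCharacter G} (hχ : χ ∈ B)
    (hdvd : p ∣ charDegree (χ : G → ℂ)) : blockDefect p B = 0 := by
  have hMp := isPrime_of_isPModular hM
  have hp : p.Prime := Fact.out
  have h1 : ¬ p ∣ Nat.card G / charDegree (χ : G → ℂ) := by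
    intro h
    have h2 := H589.Tilde.charDegree_dvd χ
    obtain ⟨c, hc⟩ := h2
    rw [hc, Nat.mul_div_cancel_left _ (charDegree_spec χ).2] at h
    apply not_sq_dvd (G := G) hP
    rw [hc]
    exact Nat.mul_dvd_mul hdvd h
  have h2 := (Cfsg.Agent.S0914.result p M hM χ).1 h1
  have h3 : B = {χ} := by
    rw [← h2]
    exact isPBlock_eq_blockOf hB hχ
  have h4 : 1 ≤ (charDegree (χ : G → ℂ)).factorization p := by
    rw [← hp.pow_dvd_iff_le_factorization (charDegree_spec χ).2.ne', pow_one]
    exact hdvd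
  unfold blockDefect
  rw [h3, Set.image_singleton, csInf_singleton, factorization_card hP]
  omega

theorem not_dvd_of_mem_Over (hK : IsComp p (P : Subgroup G) K) (hP : Nat.card P = p)
    {χ : IrrCharacter G} {θ : K → ℂ} (hχ : χ ∈ Over P θ) : ¬ p ∣ charDegree (χ : G → ℂ) := by
  classical
  have hp : p.Prime := Fact.out
  intro hdvd
  obtain ⟨M, hM⟩ := Blocks.ExistsModular.exists_isPModular hp
  have hMp := isPrime_of_isPModular hM
  obtain ⟨x, hx1, hne⟩ := hχ
  apply hne
  have hx1' : (x : G) ≠ 1 := fun h => hx1 (Subtype.ext h)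
  have h0 := blockDefect_eq_zero hP hM ⟨χ, rfl⟩ (mem_blockOf_self χ) hdvd
  have hv : ∀ y : K, (χ : G → ℂ) ((x : G) * (y : G)) = 0 := by
    intro y
    refine Cfsg.Agent.S0924.result p M hM χ _ (x : G)
      ⟨y, rfl, hK.comm x.2 y.2, ⟨1, by
        rw [pow_one]; exact Blocks.CyclicOrtho.orderOf_eq P hP x.2 hx1'⟩,
        ((hK (y : G)).1 y.2).2⟩ ?_
    intro D hD hxD
    have hcard := Cfsg.Agent.S0908.result p M hM _ ⟨χ, rfl⟩ D hD
    rw [h0, pow_zero] at hcard
    have hDbot : D = ⊥ := Subgroup.eq_bot_of_card_eq D hcard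
    rw [hDbot, Subgroup.mem_bot] at hxD
    exact hx1' hxD
  have := Fintype.ofFinite K
  rw [part_eq, Finset.sum_eq_zero, mul_zero]
  intro y _
  rw [hv, zero_mul]

/-- **Blocks of positive defect.** -/
theorem exists_eq_Over (hK : IsComp p (P : Subgroup G) K) (hP : Nat.card P = p)
    {M : Ideal AlgInt} (hM : IsPModular p M) {B : Set (IrrCharacter G)} (hB : IsPBlock M B)
    (hd : 0 < blockDefect p B) : ∃ θ : IrrCharacter K, B = Over P (θ : K → ℂ) := by
  have hMp := isPrime_of_isPModular hM
  have hp : p.Prime := Fact.out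
  have hD := isDefectGroup_sylow hP hM hB hd
  -- every member of `B` is over some `θ`
  have hover : ∀ χ ∈ B, ∃ θ : IrrCharacter K, χ ∈ Over P (θ : K → ℂ) := by
    intro χ hχ
    apply SmallSimple.ThetaCount.exists_mem_Over hK hP
    by_contra hnot
    have hvan : ∀ g : G, p ∣ orderOf g → (χ : G → ℂ) g = 0 := by
      intro g hg
      by_contra hne
      exact hnot ⟨g, hg, hne⟩
    -- then `χ` has defect zero
    obtain ⟨m, hm⟩ := SmallSimple.SingularCount.exists_degree_eq (P : Subgroup G)
      (isIrr_isCharacter χ.2) (fun x hx hx1 => hvan x (by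
        rw [Blocks.CyclicOrtho.orderOf_eq P hP hx hx1]))
    have h1 : p ∣ charDegree (χ : G → ℂ) := by
      rw [(charDegree_spec χ).1, hP] at hm
      have : charDegree (χ : G → ℂ) = m * p := by exact_mod_cast hm
      rw [this]; exact dvd_mul_left _ _
    have h2 := blockDefect_eq_zero hP hM hB hχ h1
    omega
  obtain ⟨χ₀, hχ₀⟩ := isPBlock_nonempty hB
  obtain ⟨θ, hθ⟩ := hover χ₀ hχ₀
  refine ⟨θ, Set.Subset.antisymm ?_ ?_⟩
  · intro χ hχ
    obtain ⟨θ', hθ'⟩ := hover χ hχ
    obtain ⟨n, hn, hnθ⟩ := exists_tw_eq hK hP hM hB hD (induced_of_mem_Over hK hP hM hθ hB hχ₀)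
      (induced_of_mem_Over hK hP hM hθ' hB hχ)
    rw [← hnθ, Over_tw hK hn] at hθ'
    exact hθ'
  · intro χ hχ
    have h1 := induced_of_mem_Over hK hP hM hθ hB hχ₀
    have h2 := induced_of_mem_Over hK hP hM hχ ⟨χ, rfl⟩ (mem_blockOf_self χ)
    rw [Blocks.CentralizerSum.inducedBlock_unique h1 h2]
    exact mem_blockOf_self χ

end Cfsg.Agent.H608.CycOne
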